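import Cfsg.Agent.Lib.TwoFusion.Zass2
import Cfsg.Agent.Lib.Basic.Frobenius

/-!
# Simple groups in which commuting is transitive: local structure

`G` finite simple non-abelian, commuting transitive on non-identity elements.  For an involution
`s`, with `A = C(s)` and `H = N(A)`: `H` is strongly embedded; non-identity elements of `A` fix only
the base coset; no non-identity element fixes three cosets of `H`.
-/

set_option autoImplicit false
set_option linter.unusedSectionVars false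

namespace Cfsg.Agent.Lib.CTSimple

open Cfsg Subgroup
open Cfsg.Agent.Lib.TwoFusion

universe u

variable {G : Type u} [Group G]

/-- Commuting is transitive on non-identity elements. -/
def CT (G : Type u) [Group G] : Prop :=
  ∀ a b c : G, a ≠ 1 → b ≠ 1 → c ≠ 1 → Commute a b → Commute b c → Commute a c

/-- The centralizer of an element. -/
abbrev CC (x : G) : Subgroup G := centralizer ({x} : Set G)

/-- The normalizer of the centralizer of an element. -/
abbrev Nn (x : G) : Subgroup G := normalizer ((CC x : Subgroup G) : Set G)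

theorem mem_CC {x y : G} : y ∈ CC x ↔ y * x = x * y := by
  rw [Subgroup.mem_centralizer_singleton_iff]

theorem self_mem_CC (x : G) : x ∈ CC x := mem_CC.mpr rfl

theorem CC_comm (h : CT G) {x y z : G} (hx : x ≠ 1) (hy : y ∈ CC x) (hz : z ∈ CC x) : y * z = z * y := by
  by_cases hy1 : y = 1
  · simp [hy1]
  by_cases hz1 : z = 1
  · simp [hz1]
  have h1 : Commute y x := mem_CC.mp hy
  have h2 : Commute x z := (mem_CC.mp hz).symm
  exact h y x z hy1 hx hz1 h1 h2

theorem CC_eq (h : CT G) {x y : G} (hx : x ≠ 1) (hy : y ≠ 1) (hxy : y ∈ CC x) : CC x = CC y := by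
  have c1 : Commute y x := mem_CC.mp hxy
  ext w
  by_cases hw : w = 1
  · simp [hw]
  constructor
  · intro hwx
    have c2 : Commute w x := mem_CC.mp hwx
    exact mem_CC.mpr (h w x y hw hx hy c2 c1.symm)
  · intro hwy
    have c2 : Commute w y := mem_CC.mp hwy
    exact mem_CC.mpr (h w y x hw hy hx c2 c1)

theorem CC_eq_of_common (h : CT G) {s r x : G} (hs : s ≠ 1) (hr : r ≠ 1) (hx : x ≠ 1) (h1 : x ∈ CC s)
    (h2 : x ∈ CC r) : CC s = CC r :=
  (CC_eq h hs hx h1).trans (CC_eq h hr hx h2).symm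

theorem mem_CC_conj {g s w : G} : w ∈ CC (g * s * g⁻¹) ↔ g⁻¹ * w * g ∈ CC s := by
  rw [mem_CC, mem_CC]
  constructor
  · intro h
    calc g⁻¹ * w * g * s = g⁻¹ * (w * (g * s * g⁻¹)) * g := by group
      _ = g⁻¹ * ((g * s * g⁻¹) * w) * g := by rw [h]
      _ = s * (g⁻¹ * w * g) := by group
  · intro h
    calc w * (g * s * g⁻¹) = g * ((g⁻¹ * w * g) * s) * g⁻¹ := by group
      _ = g * (s * (g⁻¹ * w * g)) * g⁻¹ := by rw [h]
      _ = g * s * g⁻¹ * w := by group

theorem conj_mem_CC_conj {g s w : G} (h : w ∈ CC s) : g * w * g⁻¹ ∈ CC (g * s * g⁻¹) := by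
  rw [mem_CC_conj]
  have e : g⁻¹ * (g * w * g⁻¹) * g = w := by group
  rwa [e]

theorem CC_conj_inj {g s r : G} (h : CC (g * s * g⁻¹) = CC (g * r * g⁻¹)) : CC s = CC r := by
  ext w
  have e : g⁻¹ * (g * w * g⁻¹) * g = w := by group
  constructor
  · intro hw
    have h1 : g * w * g⁻¹ ∈ CC (g * s * g⁻¹) := conj_mem_CC_conj hw
    rw [h] at h1
    rw [mem_CC_conj, e] at h1
    exact h1
  · intro hw
    have h1 : g * w * g⁻¹ ∈ CC (g * r * g⁻¹) := conj_mem_CC_conj hw
    rw [← h] at h1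
    rw [mem_CC_conj, e] at h1
    exact h1

theorem mem_Nn {s w : G} : w ∈ Nn s ↔ CC (w * s * w⁻¹) = CC s := by
  rw [Subgroup.mem_normalizer_iff]
  constructor
  · intro h
    ext x
    rw [mem_CC_conj]
    have := h (w⁻¹ * x * w)
    have e : w * (w⁻¹ * x * w) * w⁻¹ = x := by group
    rw [e] at this
    exact this
  · intro h x
    have e : w⁻¹ * (w * x * w⁻¹) * w = x := by group
    have h1 : w * x * w⁻¹ ∈ CC (w * s * w⁻¹) ↔ x ∈ CC s := by
      rw [mem_CC_conj, e]
    rw [h] at h1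
    exact h1.symm

theorem mem_Nn_conj {g s w : G} : w ∈ Nn (g * s * g⁻¹) ↔ g⁻¹ * w * g ∈ Nn s := by
  rw [mem_Nn, mem_Nn]
  have e1 : w * (g * s * g⁻¹) * w⁻¹ = g * ((g⁻¹ * w * g) * s * (g⁻¹ * w * g)⁻¹) * g⁻¹ := by group
  rw [e1]
  constructor
  · exact CC_conj_inj
  · intro h
    ext x
    have a := mem_CC_conj (g := g) (s := (g⁻¹ * w * g) * s * (g⁻¹ * w * g)⁻¹) (w := x)
    have b := mem_CC_conj (g := g) (s := s) (w := x)
    rw [a, b, h]

theorem CC_le_Nn (s : G) : CC s ≤ Nn s := by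
  intro x hx
  rw [mem_Nn]
  have h : x * s = s * x := mem_CC.mp hx
  have e : x * s * x⁻¹ = s := by rw [h]; group
  rw [e]

theorem self_mem_Nn (s : G) : s ∈ Nn s := CC_le_Nn s (self_mem_CC s)

theorem conj_mem_of_Nn {s v x : G} (hv : v ∈ Nn s) (hx : x ∈ CC s) : v * x * v⁻¹ ∈ CC s := by
  have h := (Subgroup.mem_normalizer_iff.mp hv x).mp hx
  exact h

theorem inv2 {u : G} (hu : orderOf u = 2) : u⁻¹ = u := involution_inv hu

theorem sq2 {u : G} (hu : orderOf u = 2) : u * u = 1 := involution_sq hu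

theorem ne1 {u : G} (hu : orderOf u = 2) : u ≠ 1 := by
  rintro rfl
  simp at hu

/-- Involutions normalizing `C(s)` centralize `s`. -/
theorem inv_mem_CC (h : CT G) {s r : G} (hs : orderOf s = 2) (hr : orderOf r = 2) (hrN : r ∈ Nn s) :
    r ∈ CC s := by
  have hs1 := ne1 hs
  have hr2 := sq2 hr
  have hri := inv2 hr
  set t' := r * s * r⁻¹ with ht'
  have ht'C : t' ∈ CC s := conj_mem_of_Nn hrN (self_mem_CC s)
  by_cases heq : t' = s
  · exact mem_CC.mpr (by
      have : r * s * r⁻¹ = s := heq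
      rw [hri] at this
      calc r * s = r * s * r * r := by rw [mul_assoc (r * s), hr2, mul_one]
        _ = s * r := by rw [this])
  · have hss := sq2 hs
    have hsi := inv2 hs
    set x := s * t' with hx
    have hxC : x ∈ CC s := (CC s).mul_mem (self_mem_CC s) ht'C
    have hx1 : x ≠ 1 := by
      intro h1
      have : t' = s⁻¹ := by
        rw [eq_inv_iff_mul_eq_one, ]
        calc t' * s = s * (s * t') * s := by
              calc t' * s = (s * s) * t' * s := by rw [hss, one_mul]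
                _ = s * (s * t') * s := by group
          _ = 1 := by rw [← hx, h1, mul_one, hss]
      rw [hsi] at this
      exact heq this
    have hcomm : s * t' = t' * s := CC_comm h hs1 (self_mem_CC s) ht'C
    have hrx : r ∈ CC x := by
      rw [mem_CC]
      have e1 : r * t' * r⁻¹ = s := by
        rw [ht', hri]
        calc r * (r * s * r) * r = (r * r) * s * (r * r) := by group
          _ = s := by rw [hr2]; group
      have e2 : r * x * r⁻¹ = x := by
        calc r * x * r⁻¹ = (r * s * r⁻¹) * (r * t' * r⁻¹) := by rw [hx]; group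
          _ = t' * s := by rw [e1]
          _ = x := by rw [hx, hcomm]
      calc r * x = r * x * r⁻¹ * r := by group
        _ = x * r := by rw [e2]
    rwa [CC_eq h hs1 hx1 hxC]

/-- Simple non-abelian: `C(s)` is not normal. -/
theorem Nn_ne_top [Finite G] [IsSimpleGroup G] (hG : ¬ IsMulCommutative G) (h : CT G) {s : G}
    (hs : orderOf s = 2) : Nn s ≠ ⊤ := by
  intro htop
  have hn : (CC s).Normal := by
    rw [← Subgroup.normalizer_eq_top_iff]
    exact htop
  rcases hn.eq_bot_or_eq_top with hb | ht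
  · have : s ∈ CC s := self_mem_CC s
    rw [hb, Subgroup.mem_bot] at this
    exact ne1 hs this
  · apply hG
    refine ⟨⟨fun a b => ?_⟩⟩
    have ha : a ∈ CC s := by rw [ht]; trivial
    have hb : b ∈ CC s := by rw [ht]; trivial
    exact CC_comm h (ne1 hs) ha hb

theorem se [Finite G] [IsSimpleGroup G] (hG : ¬ IsMulCommutative G) (h : CT G) {s : G}
    (hs : orderOf s = 2) : IsStronglyEmbedded (Nn s) := by
  refine ⟨Nn_ne_top hG h hs, even_iff_two_dvd.mpr (two_dvd_of_mem hs (self_mem_Nn s)), ?_⟩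
  intro g hg
  by_contra hodd
  rw [Nat.not_odd_iff_even] at hodd
  obtain ⟨x, hx⟩ := exists_prime_orderOf_dvd_card' (p := 2)
    (G := ↥(Nn s ⊓ (Nn s).map (MulAut.conj g).toMonoidHom)) (even_iff_two_dvd.mp hodd)
  have hx2 : orderOf (x : G) = 2 := by rw [← hx, Subgroup.orderOf_coe]
  obtain ⟨hx1, y, hy, hyx⟩ := x.2
  have hyx' : g * y * g⁻¹ = (x : G) := by simpa using hyx
  have hy2 : orderOf y = 2 := by
    rw [← hx2, ← hyx', orderOf_conj_eq]
  have h1 : (x : G) ∈ CC s := inv_mem_CC h hs hx2 hx1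
  have h2 : y ∈ CC s := inv_mem_CC h hs hy2 hy
  have h3 : (x : G) ∈ CC (g * s * g⁻¹) := by
    rw [← hyx']
    exact conj_mem_CC_conj h2
  have hs' : orderOf (g * s * g⁻¹) = 2 := by rw [orderOf_conj_eq, hs]
  have := CC_eq_of_common h (ne1 hs) (ne1 hs') (ne1 hx2) h1 h3
  exact hg (mem_Nn.mpr this.symm)

/-- An involution outside `N(C(s))`. -/
theorem exists_out [Finite G] [IsSimpleGroup G] (hG : ¬ IsMulCommutative G) (h : CT G) {s : G}
    (hs : orderOf s = 2) : ∃ u : G, orderOf u = 2 ∧ u ∉ Nn s := by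
  have hne := Nn_ne_top hG h hs
  obtain ⟨g, hg⟩ : ∃ g, g ∉ Nn s := by
    by_contra hall
    push Not at hall
    exact hne (eq_top_iff.mpr fun x _ => hall x)
  refine ⟨g * s * g⁻¹, by rw [orderOf_conj_eq, hs], fun hu => hg ?_⟩
  have hu2 : orderOf (g * s * g⁻¹) = 2 := by rw [orderOf_conj_eq, hs]
  have h1 := inv_mem_CC h hs hu2 hu
  have h2 := CC_eq h (ne1 hs) (ne1 hu2) h1
  exact mem_Nn.mpr h2.symm

section base

variable [Finite G] [IsSimpleGroup G] (hG : ¬ IsMulCommutative G) (h : CT G) {s : G}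
  (hs : orderOf s = 2)

include hG h hs

/-- Elements of `C(s)` fix only the base point. -/
theorem fix_trivial_inv {u x : G} (hu : orderOf u = 2) (huN : u ∉ Nn s) (hx : x ∈ CC s)
    (hxu : u⁻¹ * x * u ∈ Nn s) : x = 1 := by
  have hs1 := ne1 hs
  have hui := inv2 hu
  have hu2 := sq2 hu
  set s' := u * s * u⁻¹ with hs'
  have hs'2 : orderOf s' = 2 := by rw [hs', orderOf_conj_eq, hs]
  have hne : CC s ≠ CC s' := fun e => huN (mem_Nn.mpr e.symm)
  set y := u * x * u⁻¹ with hy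
  have hyC : y ∈ CC s' := conj_mem_CC_conj hx
  have hyN : y ∈ Nn s := by
    have e : y = u⁻¹ * x * u := by rw [hy, hui]
    rw [e]; exact hxu
  have hxN : x ∈ Nn s' := by
    rw [hs', mem_Nn_conj]
    exact hxu
  set c := x * y * x⁻¹ * y⁻¹ with hc
  have hc1 : c ∈ CC s' := (CC s').mul_mem (conj_mem_of_Nn hxN hyC) ((CC s').inv_mem hyC)
  have hc2 : c ∈ CC s := by
    have e : c = x * (y * x⁻¹ * y⁻¹) := by rw [hc]; group
    rw [e]
    exact (CC s).mul_mem hx (conj_mem_of_Nn hyN ((CC s).inv_mem hx))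
  have hc3 : c = 1 := by
    by_contra hc0
    exact hne (CC_eq_of_common h hs1 (ne1 hs'2) hc0 hc2 hc1)
  have hcomm : x * y = y * x := by
    have : x * y * x⁻¹ * y⁻¹ = 1 := hc3
    calc x * y = (x * y * x⁻¹ * y⁻¹) * (y * x) := by group
      _ = y * x := by rw [this, one_mul]
  by_contra hx1
  have hy1 : y ≠ 1 := by
    intro hy0
    apply hx1
    have : u * x * u⁻¹ = 1 := hy0
    have e : x = u⁻¹ * (u * x * u⁻¹) * u := by group
    rw [e, this]; group
  have hyCs : y ∈ CC s := by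
    rw [CC_eq h hs1 hx1 hx]
    exact mem_CC.mpr hcomm.symm
  exact hne (CC_eq_of_common h hs1 (ne1 hs'2) hy1 hyCs hyC)

theorem fix_trivial {g x : G} (hg : g ∉ Nn s) (hx : x ∈ CC s) (hxg : g⁻¹ * x * g ∈ Nn s) : x = 1 := by
  have hH := se hG h hs
  have hne : (QuotientGroup.mk 1 : G ⧸ Nn s) ≠ QuotientGroup.mk g := by
    intro e
    exact hg (mk_eq_mk_one_iff.mp e.symm)
  obtain ⟨i, hi, him⟩ := exists_swap hH hne
  rw [smul_mk, mul_one, QuotientGroup.eq] at him
  have hiN : i ∉ Nn s := by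
    intro hi'
    apply hg
    have := (Nn s).mul_mem hi' him
    simpa using this
  apply fix_trivial_inv hG h hs hi hiN hx
  have e : i⁻¹ * x * i = (i⁻¹ * g) * (g⁻¹ * x * g) * (i⁻¹ * g)⁻¹ := by group
  rw [e]
  exact (Nn s).mul_mem ((Nn s).mul_mem him hxg) ((Nn s).inv_mem him)

/-- Elements of `H ∩ H^u` are inverted by `u`. -/
theorem inverted {u x : G} (hu : orderOf u = 2) (huN : u ∉ Nn s) (hx : x ∈ Nn s)
    (hxu : u⁻¹ * x * u ∈ Nn s) : u * x * u⁻¹ = x⁻¹ := by
  have hH := se hG h hs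
  have ht2 : orderOf (x * s * x⁻¹) = 2 := by rw [orderOf_conj_eq, hs]
  have htH : x * s * x⁻¹ ∈ Nn s := CC_le_Nn s (conj_mem_of_Nn hx (self_mem_CC s))
  obtain ⟨d, hd1, hd2, hd3, hd4⟩ := exists_conj_inverted hH hu huN hs (self_mem_Nn s) ht2 htH
  have hw : d⁻¹ * x ∈ CC s := by
    rw [mem_CC]
    have : x * s * x⁻¹ = d * s * d⁻¹ := hd4.symm
    calc d⁻¹ * x * s = d⁻¹ * (x * s * x⁻¹) * x := by group
      _ = d⁻¹ * (d * s * d⁻¹) * x := by rw [this]
      _ = s * (d⁻¹ * x) := by group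
  have hwu : u⁻¹ * (d⁻¹ * x) * u ∈ Nn s := by
    have e : u⁻¹ * (d⁻¹ * x) * u = (u⁻¹ * d * u)⁻¹ * (u⁻¹ * x * u) := by group
    rw [e]
    exact (Nn s).mul_mem ((Nn s).inv_mem hd2) hxu
  have h1 := fix_trivial_inv hG h hs hu huN hw hwu
  have hdx : x = d := by
    have : d⁻¹ * x = 1 := h1
    calc x = d * (d⁻¹ * x) := by group
      _ = d := by rw [this, mul_one]
  rw [hdx, hd3]

end base

/-- Two involutions with different centralizers are interchanged by an involution. -/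
theorem exists_mid [Finite G] [IsSimpleGroup G] (hG : ¬ IsMulCommutative G) (h : CT G) {s r : G}
    (hs : orderOf s = 2) (hr : orderOf r = 2) (hne : CC s ≠ CC r) :
    ∃ i : G, orderOf i = 2 ∧ i * s * i = r := by
  have hH := se hG h hs
  obtain ⟨u, hu, huN⟩ := exists_out hG h hs
  obtain ⟨g, hg⟩ := isConj_iff.mp (isConj_of_involutions hH hu huN hs hr)
  have hgN : g ∉ Nn s := fun hg' => hne (by
    have := mem_Nn.mp hg'
    rw [hg] at this
    exact this.symm)
  apply exists_mid_of_odd hs hr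
  have hfs : s • (QuotientGroup.mk 1 : G ⧸ Nn s) = QuotientGroup.mk 1 := by
    rw [smul_mk, mul_one]
    exact QuotientGroup.eq.mpr (by simpa using self_mem_Nn s)
  have hfr : r • (QuotientGroup.mk g : G ⧸ Nn s) = QuotientGroup.mk g := by
    rw [smul_mk_eq_iff, ← hg]
    have e : g⁻¹ * (g * s * g⁻¹) * g = s := by group
    rw [e]
    exact self_mem_Nn s
  refine odd_mul hH hs hr hfs hfr ?_
  intro e
  exact hgN (mk_eq_mk_one_iff.mp e.symm)

/-- **No non-identity element fixes three points.** -/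
theorem three_fix [Finite G] [IsSimpleGroup G] (hG : ¬ IsMulCommutative G) (h : CT G) {s r w d : G}
    (hs : orderOf s = 2) (hr : orderOf r = 2) (hw : orderOf w = 2)
    (hsr : CC s ≠ CC r) (hsw : CC s ≠ CC w) (hrw : CC r ≠ CC w)
    (hd1 : d ∈ Nn s) (hd2 : d ∈ Nn r) (hd3 : d ∈ Nn w) : d = 1 := by
  obtain ⟨i₁, hi₁, e₁⟩ := exists_mid hG h hs hr hsr
  obtain ⟨i, hi, e⟩ := exists_mid hG h hs hw hsw
  obtain ⟨i', hi', e'⟩ := exists_mid hG h hr hw hrw
  have hi₁i := inv2 hi₁
  have hii := inv2 hi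
  have hi'i := inv2 hi'
  have hi₁2 := sq2 hi₁
  have hi2 := sq2 hi
  have hi'2 := sq2 hi'
  -- the three inversions
  have key : ∀ {a b j : G}, orderOf a = 2 → orderOf b = 2 → orderOf j = 2 → CC a ≠ CC b → j * a * j = b →
      d ∈ Nn a → d ∈ Nn b → j * d * j = d⁻¹ := by
    intro a b j ha hb hj hab hjab hda hdb
    have hjN : j ∉ Nn a := by
      intro hj'
      apply hab
      have := mem_Nn.mp hj'
      rw [inv2 hj, hjab] at this
      exact this.symm
    have hb' : b = j * a * j⁻¹ := by rw [inv2 hj, hjab]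
    have hd' : j⁻¹ * d * j ∈ Nn a := by
      have := hdb
      rw [hb', mem_Nn_conj] at this
      exact this
    have := inverted hG h ha hj hjN hda hd'
    rwa [inv2 hj] at this
  have inv₁ := key hs hr hi₁ hsr e₁ hd1 hd2
  have inv₂ := key hs hw hi hsw e hd1 hd3
  have inv₃ := key hr hw hi' hrw e' hd2 hd3
  -- `c = i i'` commutes with `d` and carries `r` to `s`
  obtain ⟨c, hc⟩ : ∃ c, c = i * i' := ⟨_, rfl⟩
  have hcinv : c⁻¹ = i' * i := by rw [hc, mul_inv_rev, hii, hi'i]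
  have hcd : c⁻¹ * d * c = d := by
    rw [hcinv, hc]
    calc i' * i * d * (i * i') = i' * (i * d * i) * i' := by group
      _ = i' * d⁻¹ * i' := by rw [inv₂]
      _ = (i' * d * i')⁻¹ := by
          rw [mul_inv_rev, mul_inv_rev, hi'i]; group
      _ = d := by rw [inv₃]; group
  have hcs : c⁻¹ * s * c = r := by
    rw [hcinv, hc]
    have e2 : i * s * i = w := e
    have e3 : i' * w * i' = r := by
      rw [← e']
      calc i' * (i' * r * i') * i' = (i' * i') * r * (i' * i') := by group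
        _ = r := by rw [hi'2]; group
    calc i' * i * s * (i * i') = i' * (i * s * i) * i' := by group
      _ = r := by rw [e2, e3]
  -- `v = i₁ c⁻¹` centralizes `s` and inverts `d`
  obtain ⟨v, hv⟩ : ∃ v, v = i₁ * c⁻¹ := ⟨_, rfl⟩
  have hvi : v⁻¹ = c * i₁ := by rw [hv, mul_inv_rev, inv_inv, hi₁i]
  have hvs : v ∈ CC s := by
    rw [mem_CC]
    have e4 : i₁ * r * i₁ = s := by
      rw [← e₁]
      calc i₁ * (i₁ * s * i₁) * i₁ = (i₁ * i₁) * s * (i₁ * i₁) := by group
        _ = s := by rw [hi₁2]; group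
    have e5 : v * s * v⁻¹ = s := by
      rw [hvi, hv]
      calc i₁ * c⁻¹ * s * (c * i₁) = i₁ * (c⁻¹ * s * c) * i₁ := by group
        _ = s := by rw [hcs, e4]
    calc v * s = v * s * v⁻¹ * v := by group
      _ = s * v := by rw [e5]
  have hvd : v * d * v⁻¹ = d⁻¹ := by
    rw [hvi, hv]
    calc i₁ * c⁻¹ * d * (c * i₁) = i₁ * (c⁻¹ * d * c) * i₁ := by group
      _ = d⁻¹ := by rw [hcd, inv₁]
  have hz : d⁻¹ * d⁻¹ ∈ CC s := by
    have e6 : d⁻¹ * d⁻¹ = v * (d * v⁻¹ * d⁻¹) := by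
      calc d⁻¹ * d⁻¹ = (v * d * v⁻¹) * d⁻¹ := by rw [hvd]
        _ = v * (d * v⁻¹ * d⁻¹) := by group
    rw [e6]
    exact (CC s).mul_mem hvs (conj_mem_of_Nn hd1 ((CC s).inv_mem hvs))
  have hi₁N : i₁ ∉ Nn s := by
    intro hj'
    apply hsr
    have := mem_Nn.mp hj'
    rw [hi₁i, e₁] at this
    exact this.symm
  have hz2 : i₁⁻¹ * (d⁻¹ * d⁻¹) * i₁ ∈ Nn s := by
    have hm : d⁻¹ * d⁻¹ ∈ Nn r := (Nn r).mul_mem ((Nn r).inv_mem hd2) ((Nn r).inv_mem hd2)
    have hb' : r = i₁ * s * i₁⁻¹ := by rw [hi₁i, e₁]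
    rw [hb', mem_Nn_conj] at hm
    exact hm
  have hz1 := fix_trivial hG h hs hi₁N hz hz2
  by_contra hd0
  have hdd : d * d = 1 := by
    have : (d * d)⁻¹ = 1 := by rw [mul_inv_rev]; exact hz1
    exact inv_eq_one.mp this
  have hd2' : orderOf d = 2 := orderOf_eq_prime (by rw [pow_two]; exact hdd) hd0
  have a1 := inv_mem_CC h hs hd2' hd1
  have a2 := inv_mem_CC h hr hd2' hd2
  exact hsr (CC_eq_of_common h (ne1 hs) (ne1 hr) hd0 a1 a2)

end Cfsg.Agent.Lib.CTSimple
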