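import Mathlib

/-!
# Commuting in `SL₂` and `PSL₂` over finite fields

In characteristic two, `SL₂(F)` has transitive commuting.  In odd characteristic with more than
five elements, `PSL₂(K)` does not.
-/

set_option autoImplicit false

namespace Cfsg.Agent.Lib.CTSimple

open Matrix

section general
variable {F : Type*} [Field F]

theorem mat_comm_iff (m n : Matrix (Fin 2) (Fin 2) F) :
    m * n = n * m ↔ (m 0 1 * n 1 0 = n 0 1 * m 1 0 ∧ (m 0 0 - m 1 1) * n 0 1 = m 0 1 * (n 0 0 - n 1 1) ∧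
      (m 0 0 - m 1 1) * n 1 0 = m 1 0 * (n 0 0 - n 1 1)) := by
  constructor
  · intro h
    have h00 := congrFun (congrFun h 0) 0
    have h01 := congrFun (congrFun h 0) 1
    have h10 := congrFun (congrFun h 1) 0
    simp only [Matrix.mul_apply, Fin.sum_univ_two] at h00 h01 h10
    refine ⟨by linear_combination h00, by linear_combination h01, by linear_combination -h10⟩
  · rintro ⟨h1, h2, h3⟩
    ext i j
    fin_cases i <;> fin_cases j <;> simp only [Matrix.mul_apply, Fin.sum_univ_two] <;>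
      simp only [Fin.zero_eta, Fin.mk_one]
    · linear_combination h1
    · linear_combination h2
    · linear_combination -h3
    · linear_combination -h1

theorem parallel_aux {p q r a b e f g k : F} (hne : p ≠ 0 ∨ q ≠ 0 ∨ r ≠ 0) (y1 : p * b = a * q)
    (y2 : r * a = p * e) (y3 : r * b = q * e) (z1 : p * g = f * q) (z2 : r * f = p * k)
    (z3 : r * g = q * k) : a * g = f * b ∧ e * f = a * k ∧ e * g = b * k := by
  rcases hne with hp | hq | hr
  · refine ⟨mul_left_cancel₀ hp ?_, mul_left_cancel₀ hp ?_, mul_left_cancel₀ (mul_ne_zero hp hp) ?_⟩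
    · linear_combination a * z1 - f * y1
    · linear_combination -f * y2 + a * z2
    · linear_combination -p * g * y2 + r * a * z1 - p * k * y1 + a * q * z2
  · refine ⟨mul_left_cancel₀ hq ?_, mul_left_cancel₀ (mul_ne_zero hq hq) ?_, mul_left_cancel₀ hq ?_⟩
    · linear_combination -g * y1 + b * z1
    · linear_combination -q * f * y3 - r * b * z1 + q * k * y1 + p * b * z3
    · linear_combination -g * y3 + b * z3
  · refine ⟨mul_left_cancel₀ (mul_ne_zero hr hr) ?_, mul_left_cancel₀ hr ?_, mul_left_cancel₀ hr ?_⟩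
    · linear_combination r * g * y2 + p * e * z3 - r * b * z2 - p * k * y3
    · linear_combination e * z2 - k * y2
    · linear_combination e * z3 - k * y3

theorem mat_comm_of_nonscalar {x y z : Matrix (Fin 2) (Fin 2) F}
    (hx : ¬ (x 0 1 = 0 ∧ x 1 0 = 0 ∧ x 0 0 = x 1 1))
    (hy : x * y = y * x) (hz : x * z = z * x) : y * z = z * y := by
  rw [mat_comm_iff] at hy hz ⊢
  obtain ⟨y1, y2, y3⟩ := hy
  obtain ⟨z1, z2, z3⟩ := hz
  refine parallel_aux ?_ y1 y2 y3 z1 z2 z3
  by_contra hall
  push Not at hall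
  exact hx ⟨hall.1, hall.2.1, sub_eq_zero.mp hall.2.2⟩

theorem sl_nonscalar (h2 : (2 : F) = 0) {A : SpecialLinearGroup (Fin 2) F} (hA : A ≠ 1) :
    ¬ ((A : Matrix (Fin 2) (Fin 2) F) 0 1 = 0 ∧ (A : Matrix (Fin 2) (Fin 2) F) 1 0 = 0 ∧
      (A : Matrix (Fin 2) (Fin 2) F) 0 0 = (A : Matrix (Fin 2) (Fin 2) F) 1 1) := by
  rintro ⟨h01, h10, hd⟩
  apply hA
  have hdet := A.2
  rw [Matrix.det_fin_two, h01, h10, ← hd] at hdet
  have h3 : ((A : Matrix (Fin 2) (Fin 2) F) 0 0 - 1) * ((A : Matrix (Fin 2) (Fin 2) F) 0 0 - 1) = 0 := by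
    linear_combination hdet - (A : Matrix (Fin 2) (Fin 2) F) 0 0 * h2 + h2
  have h4 : (A : Matrix (Fin 2) (Fin 2) F) 0 0 = 1 := sub_eq_zero.mp (mul_self_eq_zero.mp h3)
  ext i j
  fin_cases i <;> fin_cases j
  · simpa using h4
  · simpa using h01
  · simpa using h10
  · simpa [← hd] using h4

/-- In characteristic two, commuting is transitive on non-identity elements of `SL₂`. -/
theorem ct_SL (h2 : (2 : F) = 0) {a b c : SpecialLinearGroup (Fin 2) F} (hb : b ≠ 1)
    (hab : Commute a b) (hbc : Commute b c) : Commute a c := by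
  have h1 : (b : Matrix (Fin 2) (Fin 2) F) * a = a * b := by
    have := congrArg (fun m : SpecialLinearGroup (Fin 2) F => (m : Matrix (Fin 2) (Fin 2) F)) hab.eq
    simpa using this.symm
  have h3 : (b : Matrix (Fin 2) (Fin 2) F) * c = c * b := by
    have := congrArg (fun m : SpecialLinearGroup (Fin 2) F => (m : Matrix (Fin 2) (Fin 2) F)) hbc.eq
    simpa using this
  have h4 := mat_comm_of_nonscalar (sl_nonscalar h2 hb) h1 h3
  exact Subtype.ext (by simpa using h4)

end general

section odd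
variable {K : Type*} [Field K]

/-- The quotient map to `PSL₂`. -/
abbrev piSL : SpecialLinearGroup (Fin 2) K →* ProjectiveSpecialLinearGroup (Fin 2) K :=
  QuotientGroup.mk' _

theorem piSL_ne_one {A : SpecialLinearGroup (Fin 2) K}
    (hA : ¬ ((A : Matrix (Fin 2) (Fin 2) K) 0 1 = 0 ∧ (A : Matrix (Fin 2) (Fin 2) K) 1 0 = 0 ∧
      (A : Matrix (Fin 2) (Fin 2) K) 0 0 = (A : Matrix (Fin 2) (Fin 2) K) 1 1)) : piSL A ≠ 1 := by
  intro e
  have h1 : A ∈ Subgroup.center (SpecialLinearGroup (Fin 2) K) := (QuotientGroup.eq_one_iff A).mp e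
  obtain ⟨r, -, hr⟩ := Matrix.SpecialLinearGroup.mem_center_iff.mp h1
  apply hA
  rw [← hr]
  simp

/-- Constructing an element of `SL₂` from its entries. -/
def mk2 (a b c d : K) (h : a * d - b * c = 1) : SpecialLinearGroup (Fin 2) K :=
  ⟨!![a, b; c, d], by rw [Matrix.det_fin_two_of]; exact h⟩

theorem mk2_coe (a b c d : K) (h : a * d - b * c = 1) :
    ((mk2 a b c d h : SpecialLinearGroup (Fin 2) K) : Matrix (Fin 2) (Fin 2) K) = !![a, b; c, d] := rfl

theorem piSL_commute_neg {A B : SpecialLinearGroup (Fin 2) K}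
    (h : (A : Matrix (Fin 2) (Fin 2) K) * B = -((B : Matrix (Fin 2) (Fin 2) K) * A)) :
    Commute (piSL A) (piSL B) := by
  have hz1 : (-1 : K) * (-1) - 0 * 0 = 1 := by ring
  let z : SpecialLinearGroup (Fin 2) K := mk2 (-1) 0 0 (-1) hz1
  have hzc : z ∈ Subgroup.center (SpecialLinearGroup (Fin 2) K) := by
    refine Matrix.SpecialLinearGroup.mem_center_iff.mpr ⟨-1, by simp, ?_⟩
    ext i j
    fin_cases i <;> fin_cases j <;> simp [z, mk2_coe]
  have hz : piSL z = 1 := (QuotientGroup.eq_one_iff z).mpr hzc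
  have e : A * B = z * (B * A) := by
    apply Subtype.ext
    show (A : Matrix (Fin 2) (Fin 2) K) * B = (z : Matrix (Fin 2) (Fin 2) K) * (B * A)
    rw [h]
    have : (z : Matrix (Fin 2) (Fin 2) K) = -1 := by
      ext i j
      fin_cases i <;> fin_cases j <;> simp [z, mk2_coe]
    rw [this]
    simp
  show piSL A * piSL B = piSL B * piSL A
  rw [← map_mul, e, map_mul, hz, one_mul, map_mul]

theorem piSL_comm_imp {A B : SpecialLinearGroup (Fin 2) K} (h : Commute (piSL A) (piSL B)) :
    ∃ l : K, l ^ 2 = 1 ∧ ∀ i j, ((B : Matrix (Fin 2) (Fin 2) K) * A) i j =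
      ((A : Matrix (Fin 2) (Fin 2) K) * B) i j * l := by
  have h1 : piSL (A * B) = piSL (B * A) := by rw [map_mul, map_mul]; exact h.eq
  have h2 : (A * B)⁻¹ * (B * A) ∈ Subgroup.center (SpecialLinearGroup (Fin 2) K) :=
    QuotientGroup.eq.mp h1
  obtain ⟨r, hr, hre⟩ := Matrix.SpecialLinearGroup.mem_center_iff.mp h2
  refine ⟨r, by simpa using hr, ?_⟩
  have h3 : B * A = (A * B) * ((A * B)⁻¹ * (B * A)) := by group
  intro i j
  have h4 : ((B : Matrix (Fin 2) (Fin 2) K) * A) = (A * B) * scalar (Fin 2) r := by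
    calc ((B : Matrix (Fin 2) (Fin 2) K) * A) = ((B * A : SpecialLinearGroup (Fin 2) K) : Matrix (Fin 2) (Fin 2) K) := rfl
      _ = (((A * B) * ((A * B)⁻¹ * (B * A)) : SpecialLinearGroup (Fin 2) K) : Matrix (Fin 2) (Fin 2) K) := by rw [← h3]
      _ = ((A * B : SpecialLinearGroup (Fin 2) K) : Matrix (Fin 2) (Fin 2) K) * (((A * B)⁻¹ * (B * A) : SpecialLinearGroup (Fin 2) K) : Matrix (Fin 2) (Fin 2) K) := rfl
      _ = (A * B) * scalar (Fin 2) r := by rw [← hre]; rfl
  rw [h4]
  simp [Matrix.mul_apply, Fin.sum_univ_two, Matrix.scalar_apply, Matrix.diagonal_apply]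

variable [Fintype K]

theorem exists_fifth_ne (hq : 5 < Fintype.card K) : ∃ τ : K, τ ^ 5 ≠ τ := by
  classical
  by_contra hall
  push Not at hall
  let P : Polynomial K := Polynomial.X ^ 5 - Polynomial.X
  have hdeg : P.natDegree = 5 := by
    simp only [P]
    compute_degree!
  have hP : P ≠ 0 := by
    intro e
    rw [e] at hdeg
    simp at hdeg
  have h1 : (Finset.univ : Finset K) ⊆ P.roots.toFinset := by
    intro τ _
    rw [Multiset.mem_toFinset, Polynomial.mem_roots hP]
    simp [P, Polynomial.IsRoot, hall τ]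
  have h2 := Finset.card_le_card h1
  have h3 := Multiset.toFinset_card_le P.roots
  have h4 := Polynomial.card_roots' P
  rw [Finset.card_univ] at h2
  omega

theorem exists_rot (h2 : (2 : K) ≠ 0) (hq : 5 < Fintype.card K) :
    ∃ c σ : K, c ≠ 0 ∧ σ ≠ 0 ∧ c * c + σ * σ = 1 := by
  obtain ⟨τ, hτ⟩ := exists_fifth_ne (K := K) hq
  have h0 : τ ≠ 0 := by
    rintro rfl
    simp at hτ
  have h4 : τ ^ 4 ≠ 1 := by
    intro e
    apply hτ
    rw [pow_succ, e, one_mul]
  have hD : 1 + τ ^ 2 ≠ 0 := by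
    intro e
    apply h4
    have : τ ^ 2 = -1 := by linear_combination e
    calc τ ^ 4 = (τ ^ 2) ^ 2 := by ring
      _ = 1 := by rw [this]; ring
  have hN : 1 - τ ^ 2 ≠ 0 := by
    intro e
    apply h4
    have : τ ^ 2 = 1 := by linear_combination -e
    calc τ ^ 4 = (τ ^ 2) ^ 2 := by ring
      _ = 1 := by rw [this]; ring
  refine ⟨(1 - τ ^ 2) / (1 + τ ^ 2), 2 * τ / (1 + τ ^ 2), div_ne_zero hN hD,
    div_ne_zero (mul_ne_zero h2 h0) hD, ?_⟩
  field_simp
  ring

theorem exists_sq_add_sq_neg_one (hodd : Fintype.card K % 2 = 1) : ∃ a b : K, a * a + b * b = -1 := by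
  let f : Polynomial K := Polynomial.X ^ 2
  let g : Polynomial K := Polynomial.X ^ 2 + Polynomial.C 1
  have hf : f.degree = 2 := by simp [f]
  have hg : g.degree = 2 := by
    simp only [g]
    compute_degree!
  obtain ⟨a, b, hab⟩ := FiniteField.exists_root_sum_quadratic hf hg hodd
  refine ⟨a, b, ?_⟩
  simp [f, g] at hab
  linear_combination hab

/-- `PSL₂(K)` does not have transitive commuting for odd `K` with more than five elements. -/
theorem not_ct_psl (hchar : ringChar K ≠ 2) (hq : 5 < Fintype.card K) :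
    ∃ a b c : ProjectiveSpecialLinearGroup (Fin 2) K, a ≠ 1 ∧ b ≠ 1 ∧ c ≠ 1 ∧ Commute a b ∧
      Commute b c ∧ ¬ Commute a c := by
  have h2 : (2 : K) ≠ 0 := Ring.two_ne_zero hchar
  obtain ⟨c, σ, hc, hσ, hcs⟩ := exists_rot h2 hq
  obtain ⟨a, b, hab⟩ := exists_sq_add_sq_neg_one (K := K) (FiniteField.odd_card_of_char_ne_two hchar)
  have hρd : c * c - σ * (-σ) = 1 := by linear_combination hcs
  have hwd : (0 : K) * 0 - 1 * (-1) = 1 := by ring
  have hrd : a * (-a) - b * b = 1 := by linear_combination -hab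
  let ρ : SpecialLinearGroup (Fin 2) K := mk2 c σ (-σ) c hρd
  let w : SpecialLinearGroup (Fin 2) K := mk2 0 1 (-1) 0 hwd
  let r : SpecialLinearGroup (Fin 2) K := mk2 a b b (-a) hrd
  have hab0 : ¬ (a = 0 ∧ b = 0) := by
    rintro ⟨rfl, rfl⟩
    have : (1 : K) = 0 := by linear_combination hab
    exact one_ne_zero this
  refine ⟨piSL ρ, piSL w, piSL r, ?_, ?_, ?_, ?_, ?_, ?_⟩
  · apply piSL_ne_one
    rintro ⟨h01, -, -⟩
    exact hσ (by simpa [ρ, mk2_coe] using h01)
  · apply piSL_ne_one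
    rintro ⟨h01, -, -⟩
    simp [w, mk2_coe] at h01
  · apply piSL_ne_one
    rintro ⟨h01, -, hd⟩
    have hb : b = 0 := by simpa [r, mk2_coe] using h01
    have hd' : a = -a := by simpa [r, mk2_coe] using hd
    have ha : a = 0 := by
      have : 2 * a = 0 := by linear_combination hd'
      exact (mul_eq_zero.mp this).resolve_left h2
    exact hab0 ⟨ha, hb⟩
  · have e : ρ * w = w * ρ := by
      apply Subtype.ext
      show (ρ : Matrix (Fin 2) (Fin 2) K) * w = (w : Matrix (Fin 2) (Fin 2) K) * ρ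
      simp only [ρ, w, mk2_coe, Matrix.mul_fin_two]
      simp
    show piSL ρ * piSL w = piSL w * piSL ρ
    rw [← map_mul, e, map_mul]
  · apply piSL_commute_neg
    simp only [w, r, mk2_coe, Matrix.mul_fin_two]
    ext i j
    fin_cases i <;> fin_cases j <;> simp
  · intro hcomm
    obtain ⟨l, hl, hent⟩ := piSL_comm_imp hcomm
    have e00 := hent 0 0
    have e01 := hent 0 1
    simp only [ρ, r, mk2_coe, Matrix.mul_fin_two] at e00 e01
    simp at e00 e01
    have hl' : (l - 1) * (l + 1) = 0 := by linear_combination hl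
    rcases mul_eq_zero.mp hl' with hl1 | hl1
    · have hl1' : l = 1 := sub_eq_zero.mp hl1
      rw [hl1'] at e00 e01
      apply hab0
      have h5 : σ * (2 * b) = 0 := by linear_combination -e00
      have h6 : σ * (2 * a) = 0 := by linear_combination e01
      have h7 : 2 * b = 0 := (mul_eq_zero.mp h5).resolve_left hσ
      have h8 : 2 * a = 0 := (mul_eq_zero.mp h6).resolve_left hσ
      exact ⟨(mul_eq_zero.mp h8).resolve_left h2, (mul_eq_zero.mp h7).resolve_left h2⟩
    · have hl1' : l = -1 := by linear_combination hl1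
      rw [hl1'] at e00 e01
      apply hab0
      have h5 : c * (2 * a) = 0 := by linear_combination e00
      have h6 : c * (2 * b) = 0 := by linear_combination e01
      have h7 : 2 * a = 0 := (mul_eq_zero.mp h5).resolve_left hc
      have h8 : 2 * b = 0 := (mul_eq_zero.mp h6).resolve_left hc
      exact ⟨(mul_eq_zero.mp h7).resolve_left h2, (mul_eq_zero.mp h8).resolve_left h2⟩

end odd

end Cfsg.Agent.Lib.CTSimple
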