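import Cfsg.Agent.Lib.CTSimple.Core
import Cfsg.Prelude.Def_LieExceptional

/-!
# Simple groups in which commuting is transitive: the Zassenhaus action

If the centralizer `A` of an involution `s` has a second involution, `A` is regular on the cosets of
`N(A)` other than the base coset, and the action on these cosets is a Zassenhaus action.
-/

set_option autoImplicit false
set_option linter.unusedSectionVars false

namespace Cfsg.Agent.Lib.CTSimple

open Cfsg Subgroup
open Cfsg.Agent.Lib.TwoFusion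

universe u

/-- A subgroup acting freely on an invariant set has order dividing the size of the set. -/
theorem card_dvd_of_free_set {G Ω : Type*} [Group G] [MulAction G Ω] (D : Subgroup G) (X : Set Ω)
    (hinv : ∀ d ∈ D, ∀ y ∈ X, d • y ∈ X) (hfree : ∀ d ∈ D, ∀ y ∈ X, d • y = y → d = 1) :
    Nat.card D ∣ Nat.card X := by
  let act : MulAction D X :=
    { smul := fun d y => ⟨(d : G) • (y : Ω), hinv d d.2 y y.2⟩
      one_smul := fun y => Subtype.ext (one_smul G (y : Ω))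
      mul_smul := fun a b y => Subtype.ext (mul_smul (a : G) (b : G) (y : Ω)) }
  refine Cfsg.Agent.Lib.Basic.card_dvd_of_free (A := D) (X := X) ?_
  intro b
  rw [eq_bot_iff]
  intro d hd
  have h1 : (d : G) • (b : Ω) = b := congrArg Subtype.val (MulAction.mem_stabilizer_iff.mp hd)
  have h2 := hfree d d.2 b b.2 h1
  exact Subgroup.mem_bot.mpr (Subtype.ext h2)

variable {G : Type u} [Group G] [Finite G] [IsSimpleGroup G]

section
variable (hG : ¬ IsMulCommutative G) (h : CT G) {s : G} (hs : orderOf s = 2)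
include hG h hs

theorem free_A {a : G} (ha : a ∈ CC s) {q : G ⧸ Nn s} (hq : q ≠ QuotientGroup.mk 1) (hfix : a • q = q) :
    a = 1 := by
  obtain ⟨g, rfl⟩ := QuotientGroup.mk_surjective q
  rw [smul_mk_eq_iff] at hfix
  exact fix_trivial hG h hs (fun hg => hq (mk_eq_mk_one_iff.mpr hg)) ha hfix

theorem three_fix_pts {d : G} {x y z : G ⧸ Nn s} (hxy : x ≠ y) (hxz : x ≠ z) (hyz : y ≠ z)
    (hx : d • x = x) (hy : d • y = y) (hz : d • z = z) : d = 1 := by
  obtain ⟨a, rfl⟩ := QuotientGroup.mk_surjective x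
  obtain ⟨b, rfl⟩ := QuotientGroup.mk_surjective y
  obtain ⟨c, rfl⟩ := QuotientGroup.mk_surjective z
  rw [smul_mk_eq_iff] at hx hy hz
  have key : ∀ a b : G, (QuotientGroup.mk a : G ⧸ Nn s) ≠ QuotientGroup.mk b →
      CC (a * s * a⁻¹) ≠ CC (b * s * b⁻¹) := by
    intro a b hab e
    apply hab
    rw [QuotientGroup.eq, mem_Nn]
    have e1 : b * s * b⁻¹ = a * ((a⁻¹ * b) * s * (a⁻¹ * b)⁻¹) * a⁻¹ := by group
    rw [e1] at e
    exact (CC_conj_inj e).symm
  refine three_fix hG h (s := a * s * a⁻¹) (r := b * s * b⁻¹) (w := c * s * c⁻¹)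
    (by rw [orderOf_conj_eq, hs]) (by rw [orderOf_conj_eq, hs]) (by rw [orderOf_conj_eq, hs])
    (key _ _ hxy) (key _ _ hxz) (key _ _ hyz)
    (mem_Nn_conj.mpr hx) (mem_Nn_conj.mpr hy) (mem_Nn_conj.mpr hz)

theorem conj_inv_involution_mem {v t : G} (hv : v ∈ Nn s) (ht : orderOf t = 2) (htA : t ∈ CC s) :
    orderOf (v⁻¹ * t * v) = 2 ∧ v⁻¹ * t * v ∈ Nn s := by
  constructor
  · have := orderOf_conj_eq (g := v⁻¹) (x := t)
    rw [inv_inv] at this
    rw [this, ht]
  · have := conj_mem_of_Nn ((Nn s).inv_mem hv) htA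
    rw [inv_inv] at this
    exact CC_le_Nn s this

theorem exists_A_of_H {v : G} (hv : v ∈ Nn s) {x : G ⧸ Nn s} (hx : x ≠ QuotientGroup.mk 1) :
    ∃ a ∈ CC s, v • x = a • x := by
  have hH := se hG h hs
  obtain ⟨u, hu, hux⟩ := exists_swap hH hx.symm
  have hmk : (QuotientGroup.mk u : G ⧸ Nn s) = x := by rw [← hux, smul_mk, mul_one]
  have huH : u ∉ Nn s := fun hh => hx (by rw [← hmk]; exact mk_eq_mk_one_iff.mpr hh)
  obtain ⟨ht, htH⟩ := conj_inv_involution_mem hG h hs hv hs (self_mem_CC s)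
  obtain ⟨d, hdH, hdu, -, hds⟩ := exists_conj_inverted hH hu huH hs (self_mem_Nn s) ht htH
  refine ⟨v * d, ?_, ?_⟩
  · rw [mem_CC]
    calc v * d * s = v * (d * s * d⁻¹) * d := by group
      _ = v * (v⁻¹ * s * v) * d := by rw [hds]
      _ = s * (v * d) := by group
  · rw [← hmk, mul_smul, smul_mk_eq_iff.mpr hdu]

theorem exists_D_ne_one {t : G} (ht : orderOf t = 2) (htA : t ∈ CC s) (hts : t ≠ s) {x : G ⧸ Nn s}
    (hx : x ≠ QuotientGroup.mk 1) : ∃ d ∈ Nn s, d • x = x ∧ d ≠ 1 := by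
  have hH := se hG h hs
  obtain ⟨u, hu, hux⟩ := exists_swap hH hx.symm
  have hmk : (QuotientGroup.mk u : G ⧸ Nn s) = x := by rw [← hux, smul_mk, mul_one]
  have huH : u ∉ Nn s := fun hh => hx (by rw [← hmk]; exact mk_eq_mk_one_iff.mpr hh)
  obtain ⟨d, hdH, hdu, -, hds⟩ :=
    exists_conj_inverted hH hu huH hs (self_mem_Nn s) ht (CC_le_Nn s htA)
  refine ⟨d, hdH, ?_, ?_⟩
  · rw [← hmk]; exact smul_mk_eq_iff.mpr hdu
  · rintro rfl
    apply hts
    rw [← hds]; group

theorem transitive_A {t : G} (ht : orderOf t = 2) (htA : t ∈ CC s) (hts : t ≠ s) {x y : G ⧸ Nn s}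
    (hx : x ≠ QuotientGroup.mk 1) (hy : y ≠ QuotientGroup.mk 1) : ∃ a ∈ CC s, a • x = y := by
  classical
  by_contra hno
  obtain ⟨d₀, hd₀H, hd₀x, hd₀⟩ := exists_D_ne_one hG h hs ht htA hts hx
  have hp_fix : ∀ v ∈ Nn s, v • (QuotientGroup.mk 1 : G ⧸ Nn s) = QuotientGroup.mk 1 := by
    intro v hv
    rw [smul_mk, mul_one]
    exact mk_eq_mk_one_iff.mpr hv
  have hq_ne : ∀ {q : G ⧸ Nn s} {a : G}, a ∈ CC s → q ≠ QuotientGroup.mk 1 →
      a • q ≠ QuotientGroup.mk 1 := by
    intro q a ha hq e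
    apply hq
    have e2 := hp_fix a (CC_le_Nn s ha)
    exact MulAction.injective a (e.trans e2.symm)
  let D : Subgroup G := Nn s ⊓ MulAction.stabilizer G x
  have hD : ∀ d ∈ D, d ∈ Nn s ∧ d • x = x := fun d hd => ⟨hd.1, MulAction.mem_stabilizer_iff.mp hd.2⟩
  have inj : ∀ {q : G ⧸ Nn s}, q ≠ QuotientGroup.mk 1 →
      Function.Injective (fun a : CC s => (a : G) • q) := by
    intro q hq a b hab
    have hab' : (a : G) • q = (b : G) • q := hab
    have h1 : ((b : G)⁻¹ * (a : G)) • q = q := by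
      rw [mul_smul, hab', inv_smul_smul]
    have h2 := free_A hG h hs ((CC s).mul_mem ((CC s).inv_mem b.2) a.2) hq h1
    exact Subtype.ext (by
      have := inv_mul_eq_one.mp h2
      exact this.symm)
  let X₁ : Set (G ⧸ Nn s) := Set.range (fun a : CC s => (a : G) • x) \ {x}
  let X₂ : Set (G ⧸ Nn s) := Set.range (fun a : CC s => (a : G) • y)
  have hc₂ : Nat.card X₂ = Nat.card (CC s) := Nat.card_range_of_injective (inj hy)
  have hc₁ : Nat.card X₁ + 1 = Nat.card (CC s) := by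
    have hmem : x ∈ Set.range (fun a : CC s => (a : G) • x) := ⟨1, by simp⟩
    have e0 := Nat.card_range_of_injective (inj hx)
    rw [Nat.card_coe_set_eq] at e0
    have e1 : Nat.card X₁ = (Set.range (fun a : CC s => (a : G) • x)).ncard - 1 := by
      rw [Nat.card_coe_set_eq]
      exact Set.ncard_sdiff_singleton_of_mem hmem
    have hpos : 0 < (Set.range (fun a : CC s => (a : G) • x)).ncard :=
      (Set.ncard_pos (Set.toFinite _)).mpr ⟨x, hmem⟩
    omega
  have hd₁ : Nat.card D ∣ Nat.card X₁ := by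
    apply card_dvd_of_free_set
    · rintro d hd z ⟨⟨a, rfl⟩, hzx⟩
      obtain ⟨hd1, hd2⟩ := hD d hd
      refine ⟨?_, ?_⟩
      · obtain ⟨a', ha', e⟩ := exists_A_of_H hG h hs ((Nn s).mul_mem hd1 (CC_le_Nn s a.2)) hx
        refine ⟨⟨a', ha'⟩, ?_⟩
        show a' • x = d • ((a : G) • x)
        rw [← mul_smul, e]
      · intro e
        apply hzx
        have e' : d • ((a : G) • x) = d • x := by rw [hd2]; exact e
        exact MulAction.injective d e'
    · rintro d hd z ⟨⟨a, rfl⟩, hzx⟩ hfix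
      obtain ⟨hd1, hd2⟩ := hD d hd
      exact three_fix_pts hG h hs (x := QuotientGroup.mk 1) (y := x) (z := (a : G) • x) hx.symm
        (hq_ne a.2 hx).symm (fun e => hzx e.symm) (hp_fix d hd1) hd2 hfix
  have hd₂ : Nat.card D ∣ Nat.card X₂ := by
    apply card_dvd_of_free_set
    · rintro d hd z ⟨a, rfl⟩
      obtain ⟨hd1, hd2⟩ := hD d hd
      obtain ⟨a', ha', e⟩ := exists_A_of_H hG h hs ((Nn s).mul_mem hd1 (CC_le_Nn s a.2)) hy
      refine ⟨⟨a', ha'⟩, ?_⟩
      show a' • y = d • ((a : G) • y)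
      rw [← mul_smul, e]
    · rintro d hd z ⟨a, rfl⟩ hfix
      obtain ⟨hd1, hd2⟩ := hD d hd
      have hne : x ≠ (a : G) • y := by
        intro e
        apply hno
        refine ⟨(a : G)⁻¹, (CC s).inv_mem a.2, ?_⟩
        rw [e, inv_smul_smul]
      exact three_fix_pts hG h hs (x := QuotientGroup.mk 1) (y := x) (z := (a : G) • y) hx.symm
        (hq_ne a.2 hy).symm hne (hp_fix d hd1) hd2 hfix
  rw [hc₂] at hd₂
  rw [← hc₁] at hd₂
  have h1 : Nat.card D ∣ 1 := (Nat.dvd_add_right hd₁).mp hd₂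
  have h2 : Nat.card D = 1 := Nat.dvd_one.mp h1
  have h3 : D = ⊥ := Subgroup.eq_bot_of_card_eq D h2
  have h4 : d₀ ∈ D := ⟨hd₀H, MulAction.mem_stabilizer_iff.mpr hd₀x⟩
  rw [h3] at h4
  exact hd₀ (Subgroup.mem_bot.mp h4)

theorem isZass {t : G} (ht : orderOf t = 2) (htA : t ∈ CC s) (hts : t ≠ s) :
    IsZassenhausGroup G (G ⧸ Nn s) := by
  have hne := Nn_ne_top hG h hs
  obtain ⟨u, hu, huN⟩ := exists_out hG h hs
  have hu_move : u • (QuotientGroup.mk 1 : G ⧸ Nn s) ≠ QuotientGroup.mk 1 := by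
    rw [smul_mk, mul_one]
    exact fun e => huN (mk_eq_mk_one_iff.mp e)
  refine ⟨?_, ?_, ?_, ?_, ?_⟩
  · -- faithful
    refine ⟨fun {g₁ g₂} e => ?_⟩
    have hker : (MulAction.toPermHom G (G ⧸ Nn s)).ker = ⊥ := by
      rcases (MulAction.toPermHom G (G ⧸ Nn s)).normal_ker.eq_bot_or_eq_top with h0 | h0
      · exact h0
      · exfalso
        have : u ∈ (MulAction.toPermHom G (G ⧸ Nn s)).ker := by rw [h0]; trivial
        have h1 : MulAction.toPermHom G (G ⧸ Nn s) u = 1 := this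
        apply hu_move
        exact congrArg (fun π : Equiv.Perm (G ⧸ Nn s) => π (QuotientGroup.mk 1)) h1
    have hinj := (MonoidHom.ker_eq_bot_iff _).mp hker
    apply hinj
    ext a
    exact e a
  · rw [MulAction.is_two_pretransitive_iff]
    intro a b c d hab hcd
    have htr : ∀ z : G ⧸ Nn s, ∃ g : G, g • z = QuotientGroup.mk 1 := by
      intro z
      obtain ⟨g, rfl⟩ := QuotientGroup.mk_surjective z
      exact ⟨g⁻¹, by rw [smul_mk, inv_mul_cancel]⟩
    obtain ⟨g₁, hg₁⟩ := htr a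
    obtain ⟨g₂, hg₂⟩ := htr c
    have hb : g₁ • b ≠ QuotientGroup.mk 1 := by
      intro e
      exact hab (MulAction.injective g₁ (hg₁.trans e.symm))
    have hd : g₂ • d ≠ QuotientGroup.mk 1 := by
      intro e
      exact hcd (MulAction.injective g₂ (hg₂.trans e.symm))
    obtain ⟨r, hr, e⟩ := transitive_A hG h hs ht htA hts hb hd
    refine ⟨g₂⁻¹ * r * g₁, ?_, ?_⟩
    · rw [mul_smul, mul_smul, hg₁]
      have : r • (QuotientGroup.mk 1 : G ⧸ Nn s) = QuotientGroup.mk 1 := by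
        rw [smul_mk, mul_one]
        exact mk_eq_mk_one_iff.mpr (CC_le_Nn s hr)
      rw [this, ← hg₂, inv_smul_smul]
    · rw [mul_smul, mul_smul, e, inv_smul_smul]
  · intro g a b c hab hbc hac h1 h2 h3
    exact three_fix_pts hG h hs hab hac hbc h1 h2 h3
  · obtain ⟨d, hdH, hdx, hd1⟩ := exists_D_ne_one hG h hs ht htA hts hu_move
    refine ⟨d, hd1, QuotientGroup.mk 1, u • QuotientGroup.mk 1, hu_move.symm, ?_, hdx⟩
    rw [smul_mk, mul_one]
    exact mk_eq_mk_one_iff.mpr hdH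
  · intro N hN htr
    rcases hN.eq_bot_or_eq_top with h0 | h0
    · exfalso
      subst h0
      obtain ⟨g, hg⟩ := htr.exists_smul_eq (QuotientGroup.mk 1 : G ⧸ Nn s) (u • QuotientGroup.mk 1)
      have hg1 : (g : G) = 1 := Subgroup.mem_bot.mp g.2
      have : (g : G) • (QuotientGroup.mk 1 : G ⧸ Nn s) = u • QuotientGroup.mk 1 := hg
      rw [hg1, one_smul] at this
      exact hu_move this.symm
    · subst h0
      refine ⟨QuotientGroup.mk 1, ?_⟩
      intro hbot
      have h1 := (Subgroup.eq_bot_iff_forall _).mp hbot ⟨s, Subgroup.mem_top s⟩ (by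
        rw [MulAction.mem_stabilizer_iff]
        show s • (QuotientGroup.mk 1 : G ⧸ Nn s) = QuotientGroup.mk 1
        rw [smul_mk, mul_one]
        exact mk_eq_mk_one_iff.mpr (self_mem_Nn s))
      exact ne1 hs (congrArg Subtype.val h1)

end

end Cfsg.Agent.Lib.CTSimple
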